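import Mathlib
import Cfsg.Agent.CTwoTab.Co1
import Cfsg.Agent.StdG24.FiveL
import Cfsg.Agent.StdG24.Ax6
import Cfsg.Agent.H738.C3.Tools

/-!
# S1920, case B: the row `Co₁` (helper444)

* classes 2A, 2C: `C(t)` is of characteristic 2;
* class 2B: `C(w) = (2² × L).2`, `L = G₂(4)`: the four-group is in `N0`, so `|N0 ∩ L| ≥ 8`; but the Sylow 2-subgroups of the
  centralizer of an element of order 5 of `L` have order 4.
-/

set_option autoImplicit false

open Subgroup

namespace Cfsg.Agent.H444.Co1CB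

open Cfsg Cfsg.Agent.H738.C3 Cfsg.Agent.H13.Co3
open Cfsg.Agent.KFacts.Co1D4
open Cfsg.Agent.StdG24.FiveL (FC)

universe u

/-! ### elements of order 5 of `G₂(4)` -/

/-- a 2-group commuting with an element of order 5 has order dividing 4 -/
theorem card_dvd_of_FC {L : Type*} [Group L] [Finite L] {d : L} {D : Subgroup L} (h : FC d D) (hd5 : d ^ 5 = 1)
    {Q : Subgroup L} (hQ : IsPGroup 2 Q) (hc : ∀ q ∈ Q, q * d = d * q) : Nat.card Q ∣ 4 := by
  have : Fact (Nat.Prime 2) := ⟨Nat.prime_two⟩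
  obtain ⟨e⟩ := h.iso
  let f : zpowers d × D →* L :=
    { toFun := fun p => (p.1 : L) * p.2
      map_one' := by simp
      map_mul' := by
        rintro ⟨⟨a, i, rfl⟩, b⟩ ⟨⟨a', i', rfl⟩, b'⟩
        have h1 : Commute (b : L) d := h.comm b b.2
        have h2 : (b : L) * d ^ i' = d ^ i' * b := (h1.zpow_right i').eq
        show d ^ i * d ^ i' * ((b : L) * b') = d ^ i * b * (d ^ i' * b')
        calc d ^ i * d ^ i' * ((b : L) * b') = d ^ i * (d ^ i' * b) * b' := by group
          _ = d ^ i * (b * d ^ i') * b' := by rw [h2]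
          _ = d ^ i * b * (d ^ i' * b') := by group }
  have hle : Q ≤ f.range := by
    intro q hq
    obtain ⟨i, c, hcD, hqc⟩ := h.cent q (hc q hq)
    exact ⟨(⟨d ^ i, pow_mem (mem_zpowers d) i⟩, ⟨c, hcD⟩), hqc.symm⟩
  have h1 : Nat.card Q ∣ Nat.card f.range := card_dvd_of_le hle
  have h2 : Nat.card f.range ∣ Nat.card (zpowers d × D) := card_range_dvd f
  have h3 : Nat.card D = 60 := by
    rw [Nat.card_congr e.toEquiv, nat_card_alternatingGroup]
    simp [Nat.factorial]
  have h4 : Nat.card (zpowers d) ∣ 5 := by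
    rw [Nat.card_zpowers]
    exact orderOf_dvd_of_pow_eq_one hd5
  have h5 : Nat.card Q ∣ 5 * 60 := by
    refine h1.trans (h2.trans ?_)
    rw [Nat.card_prod, h3]
    exact mul_dvd_mul_right h4 60
  obtain ⟨k, hk⟩ := hQ.exists_card_eq
  rw [hk] at h5 ⊢
  have h6 : (2 ^ k).Coprime 75 := Nat.Coprime.pow_left k (by norm_num)
  exact h6.dvd_of_dvd_mul_right (by rw [show 4 * 75 = 5 * 60 by norm_num]; exact h5)

theorem card_dvd {y : Spor.Co1} (hy : y ∈ GTwo.L) (hy1 : y ≠ 1) (hy5 : y ^ 5 = 1) {Q : Subgroup Spor.Co1}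
    (hQL : Q ≤ GTwo.L) (hQ : IsPGroup 2 Q) (hc : ∀ q ∈ Q, q * y = y * q) : Nat.card Q ∣ 4 := by
  have hfin : Finite StdG24.Mod6.L := SixCen.finite_L
  obtain ⟨d, hd⟩ : ∃ d, GTwo.φ d = ⟨y, hy⟩ := GTwo.φ.surjective _
  have hd5 : d ^ 5 = 1 := by
    apply GTwo.φ.injective
    rw [map_pow, hd, map_one]
    exact Subtype.ext hy5
  have hd1 : d ≠ 1 := by
    intro h0
    rw [h0, map_one] at hd
    exact hy1 (congrArg Subtype.val hd).symm
  obtain ⟨D, hD⟩ := StdG24.FiveL.exists_FC StdG24.Ax6.ax6 hd1 hd5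
  have h1 : Nat.card ((Q.subgroupOf GTwo.L).comap GTwo.φ.toMonoidHom) = Nat.card Q := by
    have e1 : (Q.subgroupOf GTwo.L).comap GTwo.φ.toMonoidHom = (Q.subgroupOf GTwo.L).map GTwo.φ.symm.toMonoidHom :=
      (map_equiv_eq_comap_symm GTwo.φ.symm _).symm
    rw [e1, card_map_of_injective GTwo.φ.symm.injective]
    exact Nat.card_congr (subgroupOfEquivOfLe hQL).toEquiv
  rw [← h1]
  refine card_dvd_of_FC hD hd5 ?_ ?_
  · have h2 : IsPGroup 2 (Q.subgroupOf GTwo.L) := hQ.of_equiv (subgroupOfEquivOfLe hQL).symm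
    exact h2.comap_of_injective _ GTwo.φ.injective
  · intro q hq
    apply GTwo.φ.injective
    rw [map_mul, map_mul, hd]
    exact Subtype.ext (hc _ hq)

/-! ### the four-group -/

section abs

variable {X : Type*} [Group X] {w v r z₀ : X} {L : Subgroup X}

theorem conj_Z [Finite X] (S : Abs.Setup w v r z₀ L) {c x : X} (hc : c * w = w * c) (hx : x ∈ S.Z) :
    c * x * c⁻¹ ∈ S.Z := by
  have hxw : x * w = w * x := S.Z_comm x hx w S.w_mem
  have hc' : c⁻¹ * w = w * c⁻¹ := Abs.Setup.inv_w hc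
  apply S.cent
  · exact Abs.Setup.mul_w (Abs.Setup.mul_w hc hxw) hc'
  · intro l hl
    have h1 : c⁻¹ * l * c ∈ L := by
      have := S.conj_L hc' hl
      rwa [inv_inv] at this
    have h2 := S.cent_LZ _ h1 x hx
    calc c * x * c⁻¹ * l = c * (x * (c⁻¹ * l * c)) * c⁻¹ := by group
      _ = c * (c⁻¹ * l * c * x) * c⁻¹ := by rw [h2]
      _ = l * (c * x * c⁻¹) := by group

theorem comm_Z [Finite X] (S : Abs.Setup w v r z₀ L) {c x : X} (hc : c * w = w * c) (hx : x ∈ S.Z) :
    x * c * x⁻¹ * c⁻¹ = 1 ∨ x * c * x⁻¹ * c⁻¹ = w := by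
  have key : ∀ t : X, t ∈ S.Z → t ≠ 1 → t ≠ w → c * t * c⁻¹ = t ∨ c * t * c⁻¹ = w * t := by
    intro t ht ht1 htw
    have h1 := conj_Z S hc ht
    have h2 : c * t * c⁻¹ ≠ 1 := by
      intro h
      rw [mul_inv_eq_one] at h
      exact ht1 (mul_left_cancel (h.trans (mul_one c).symm))
    have h3 : c * t * c⁻¹ ≠ w := by
      intro h
      rw [mul_inv_eq_iff_eq_mul, ← hc] at h
      exact htw (mul_left_cancel h)
    rcases ht with rfl | rfl | rfl | rfl
    · exact absurd rfl ht1
    · exact absurd rfl htw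
    · rcases h1 with h | h | h | h
      · exact absurd h h2
      · exact absurd h h3
      · exact Or.inl h
      · exact Or.inr h
    · rcases h1 with h | h | h | h
      · exact absurd h h2
      · exact absurd h h3
      · right
        rw [h, ← mul_assoc, S.ww, one_mul]
      · exact Or.inl h
  by_cases hx1 : x = 1
  · left
    rw [hx1]; simp
  by_cases hxw : x = w
  · left
    rw [hxw, ← hc]; group
  have hxx : x⁻¹ = x := by
    have h1 : ∀ a ∈ S.Z, a * a = 1 := by
      rintro a (rfl | rfl | rfl | rfl)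
      · exact mul_one 1
      · exact S.ww
      · exact S.vv
      · calc w * v * (w * v) = w * (v * w) * v := by group
          _ = w * (w * v) * v := by rw [S.comm]
          _ = (w * w) * (v * v) := by group
          _ = 1 := by rw [S.ww, S.vv, mul_one]
    exact inv_eq_of_mul_eq_one_right (h1 x hx)
  have e : x * c * x⁻¹ * c⁻¹ = x * (c * x * c⁻¹) := by rw [hxx]; group
  have hxx' : x * x = 1 := by
    nth_rw 1 [← hxx]
    exact inv_mul_cancel x
  rw [e]
  rcases key x hx hx1 hxw with h | h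
  · left
    rw [h]; exact hxx'
  · right
    rw [h, ← mul_assoc, S.Z_comm x hx w S.w_mem, mul_assoc, hxx', mul_one]

/-- **The contradiction.** -/
theorem abs [Finite X] (S : Abs.Setup w v r z₀ L)
    (hL : ∀ y ∈ L, y ≠ 1 → y ^ 5 = 1 → ∀ Q : Subgroup X, Q ≤ L → IsPGroup 2 Q → (∀ q ∈ Q, q * y = y * q) → Nat.card Q ∣ 4)
    {N : Subgroup X} (hN2 : IsPGroup 2 N) (hcard : Nat.card N = 64) (hZN : S.Z ≤ N) (hNw : ∀ n ∈ N, n * w = w * n)
    {y : X} (hy5 : y ^ 5 = 1) (hy1 : y ≠ 1) (hyN : ∀ n ∈ N, y * n = n * y) : False := by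
  classical
  -- `y ∈ L`
  have hyw : y * w = w * y := hyN w (hZN S.w_mem)
  have hy2 : y * y ∈ S.ZL := (S.mul_mem_iff hyw hyw).2 Iff.rfl
  have hyL : y ∈ L := by
    obtain ⟨a, ha, l, hl, h⟩ := hy2
    have h1 : l * a = a * l := S.cent_LZ l hl a ha
    have haa : a * a = 1 := by
      rcases ha with rfl | rfl | rfl | rfl
      · exact mul_one 1
      · exact S.ww
      · exact S.vv
      · calc w * v * (w * v) = w * (v * w) * v := by group
          _ = w * (w * v) * v := by rw [S.comm]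
          _ = (w * w) * (v * v) := by group
          _ = 1 := by rw [S.ww, S.vv, mul_one]
    have h2 : y⁻¹ = l * l := by
      have h3 : y * y * (y * y) * y = 1 := by
        rw [← hy5]; simp only [pow_succ, pow_zero, one_mul, mul_assoc]
      have h4 : y * y * (y * y) = l * l := by
        rw [h]
        calc a * l * (a * l) = a * (l * a) * l := by group
          _ = a * (a * l) * l := by rw [h1]
          _ = (a * a) * (l * l) := by group
          _ = l * l := by rw [haa, one_mul]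
      rw [h4] at h3
      exact (eq_inv_of_mul_eq_one_left h3).symm
    rw [← inv_inv y, h2]
    exact L.inv_mem (L.mul_mem hl hl)
  -- `N ∩ L`
  have h4 : Nat.card ↥(N ⊓ L) ∣ 4 := by
    refine hL y hyL hy1 hy5 _ inf_le_right (hN2.to_le inf_le_left) ?_
    intro q hq
    exact (hyN q hq.1).symm
  -- the order of `N ∩ ZL`
  have h5 : 32 ≤ Nat.card ↥(N ⊓ S.ZL) := by
    have h6 : ((S.ZL).subgroupOf N).index = 1 ∨ ((S.ZL).subgroupOf N).index = 2 := by
      by_cases hle : N ≤ S.ZL
      · left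
        rw [subgroupOf_eq_top.2 hle, index_top]
      · right
        obtain ⟨a, haN, haZ⟩ := SetLike.not_le_iff_exists.1 hle
        rw [index_eq_two_iff]
        refine ⟨⟨a, haN⟩, fun b => ?_⟩
        rw [mem_subgroupOf, mem_subgroupOf]
        have h7 := S.mul_mem_iff (hNw b b.2) (hNw a haN)
        show Xor ((b : X) * a ∈ S.ZL) ((b : X) ∈ S.ZL)
        rw [h7]
        unfold Xor
        tauto
    have h7 := ((S.ZL).subgroupOf N).index_mul_card
    have h8 : Nat.card ((S.ZL).subgroupOf N) = Nat.card ↥(N ⊓ S.ZL) := by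
      rw [← card_map_of_injective N.subtype_injective, subgroupOf_map_subtype, inf_comm]
    rw [hcard, h8] at h7
    rcases h6 with h | h <;> rw [h] at h7 <;> omega
  have h9 : Nat.card ↥(N ⊓ S.ZL) ≤ 4 * Nat.card ↥(N ⊓ L) := by
    rw [← S.card_Z, ← Nat.card_prod]
    have hex : ∀ g : ↥(N ⊓ S.ZL), ∃ p : S.Z × ↥(N ⊓ L), (g : X) = p.1 * p.2 := by
      rintro ⟨g, hgN, a, ha, l, hl, rfl⟩
      refine ⟨(⟨a, ha⟩, ⟨l, ?_, hl⟩), rfl⟩
      have := N.mul_mem (N.inv_mem (hZN ha)) hgN
      rwa [inv_mul_cancel_left] at this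
    choose f hf using hex
    refine Nat.card_le_card_of_injective f ?_
    intro a b hab
    apply Subtype.ext
    rw [hf a, hf b, hab]
  have h10 := Nat.le_of_dvd (by norm_num) h4
  omega

end abs

/-! ### the row -/

section row

variable {G : Type u} [Group G] [Finite G] {P N0 : Subgroup G} {z s : G}
  {ψ : ↥(normalizer (P : Set G)) →* Equiv.Perm (Fin 6)}

theorem kill_ctr (C : CB P N0 z s ψ) {t : Spor.Co1} (e : G ≃* Spor.Co1) (he : e z = t) (h : CTwoTab.Co1.Ctr t) :
    False := by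
  obtain ⟨R, h1, h2, h3, h4⟩ := h
  obtain ⟨y, hy, hyN⟩ := exists_five C
  have hcz : ∀ g : G, g * z = z * g → e g ∈ centralizer ({t} : Set Spor.Co1) := by
    intro g hg
    rw [mem_centralizer_singleton_iff, ← he, ← map_mul, ← map_mul, hg]
  have hcA : ∀ g, Act z N0 g → g * z = z * g := fun g hg => hg.comm_z (conf C).ord (conf C).mem
  have h5 := (conf C).not_char2 (M := centralizer ({z} : Set G)) (Q := R.comap e.toMonoidHom) ?_ ?_ ?_ ?_ ?_ hyN
    (by rw [hy]; decide) ?_
  · rw [h5, orderOf_one] at hy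
    omega
  · intro g hg m hm
    have hg' : g ∈ centralizer ({z} : Set G) := mem_centralizer_singleton_iff.2 (hcA g hg)
    exact mul_mem (mul_mem hg' hm) (inv_mem hg')
  · exact h3.comap_of_injective _ e.injective
  · intro g hg w hw
    have := h2 (e g) (hcz g (hcA g hg)) (e w) hw
    show e (g * w * g⁻¹) ∈ R
    rwa [map_mul, map_mul, map_inv]
  · intro m hm q hq
    have := h2 (e m) (hcz m (mem_centralizer_singleton_iff.1 hm)) (e q) hq
    show e (m * q * m⁻¹) ∈ R
    rwa [map_mul, map_mul, map_inv]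
  · intro m hm hq
    refine h4 (e m) (hcz m (mem_centralizer_singleton_iff.1 hm)) ?_
    intro r hr
    obtain ⟨x, rfl⟩ := e.surjective r
    rw [← map_mul, ← map_mul, hq x hr]
  · exact mem_centralizer_singleton_iff.2 (hyN z (conf C).mem)

theorem kill_two (C : CB P N0 z s ψ) (e : G ≃* Spor.Co1) (he : e z = TwoB.w) : False := by
  have hfin : Finite Spor.Co1 := Finite.of_equiv G e.toEquiv
  have S := Main.setup
  obtain ⟨y, hy, hyN⟩ := exists_five C
  have hcz : ∀ g : G, g * z = z * g → e g * TwoB.w = TwoB.w * e g := by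
    intro g hg
    rw [← he, ← map_mul, ← map_mul, hg]
  have hcA : ∀ g, Act z N0 g → g * z = z * g := fun g hg => hg.comm_z (conf C).ord (conf C).mem
  have hNz : ∀ n ∈ N0, n * z = z * n := fun n hn => hcA n (act_N C hn)
  have hZ2 : IsPGroup 2 S.Z := IsPGroup.of_card (n := 2) (by rw [S.card_Z]; norm_num)
  have hle : S.Z.comap e.toMonoidHom ≤ N0 := by
    apply le_N0 C (hZ2.comap_of_injective _ e.injective)
    · intro x hx a ha
      have h1 := comm_Z S (hcz a (hNz a ha)) (show e x ∈ S.Z from hx)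
      have h2 : e (x * a * x⁻¹ * a⁻¹) = e x * e a * (e x)⁻¹ * (e a)⁻¹ := by
        rw [map_mul, map_mul, map_mul, map_inv, map_inv]
      rw [← h2] at h1
      rcases h1 with h | h
      · rw [e.injective (h.trans (map_one e).symm)]
        exact one_mem _
      · rw [e.injective (h.trans he.symm)]
        exact mem_zpowers z
    · intro g hg x hx
      have := conj_Z S (hcz g (hcA g hg)) (show e x ∈ S.Z from hx)
      show e (g * x * g⁻¹) ∈ S.Z
      rwa [map_mul, map_mul, map_inv]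
  refine abs S (fun y hy hy1 hy5 Q hQL hQ hc => card_dvd hy hy1 hy5 hQL hQ hc) (N := N0.map e.toMonoidHom) ?_ ?_ ?_ ?_
    (y := e y) ?_ ?_ ?_
  · exact C.N_two.map _
  · rw [card_map_of_injective e.injective, C.card]
  · intro x hx
    obtain ⟨g, rfl⟩ := e.surjective x
    exact ⟨g, hle hx, rfl⟩
  · rintro _ ⟨n, hn, rfl⟩
    exact hcz n (hNz n hn)
  · rw [← map_pow, ← hy, pow_orderOf_eq_one, map_one]
  · intro h
    rw [e.injective (h.trans (map_one e).symm), orderOf_one] at hy
    omega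
  · rintro _ ⟨n, hn, rfl⟩
    show e y * e n = e n * e y
    rw [← map_mul, ← map_mul, hyN n hn]

end row

/-- **The row `Co₁` of S1920, case B.** -/
theorem row_Co1 {G : Type u} [Group G] [Finite G] (h : Spor.IsoCo1 G) {P N0 : Subgroup G} {z s : G}
    {ψ : ↥(normalizer (P : Set G)) →* Equiv.Perm (Fin 6)} (C : CB P N0 z s ψ) : False := by
  obtain ⟨e⟩ := h
  have ho : orderOf (e z) = 2 := by rw [MulEquiv.orderOf_eq, orderOf_z C]
  obtain ⟨g, t, ht, hg⟩ := CTwoTab.Co1.exists_rep (e z) ho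
  have he : (e.trans (MulAut.conj g⁻¹)) z = t := by
    show g⁻¹ * e z * g⁻¹⁻¹ = t
    rw [hg]; group
  rcases ht with ⟨o, ho, rfl⟩ | ⟨d, hd, rfl⟩ | rfl
  · exact kill_ctr C _ he (CTwoTab.Co1.ctr_octad ho)
  · exact kill_ctr C _ he (CTwoTab.Co1.ctr_dodecad hd)
  · exact kill_two C _ he

end Cfsg.Agent.H444.Co1CB
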