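import Cfsg.Agent.H444.FprOdd

/-!
# Fixed point ratios of `p`-elements in alternating groups, `p` odd

* `UP p α` : some `p`-element of `Perm α` lies in only one Sylow `p`-subgroup;
* `UF p α` : a full cycle of `p`-power length lies in only one Sylow `p`-subgroup;
* `uf_prod` : `UF p β → UF p (ZMod p × β)`; `up_sum`; `up_fin`;
* `row_alt`.
-/

set_option autoImplicit false
set_option linter.unusedSectionVars false

open Equiv

namespace Cfsg.Agent.H444.Fpr

universe u v

/-- Some `p`-element of `Perm α` lies in only one Sylow `p`-subgroup. -/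
def UP (p : ℕ) (α : Type*) : Prop :=
  ∃ z : Perm α, (∃ k : ℕ, z ^ p ^ k = 1) ∧ ∀ Q Q' : Sylow p (Perm α), z ∈ Q → z ∈ Q' → Q = Q'

/-- A full cycle of `p`-power length lies in only one Sylow `p`-subgroup. -/
def UF (p : ℕ) (α : Type*) : Prop :=
  ∃ z : Perm α, (∃ k : ℕ, z ^ p ^ k = 1 ∧ Nat.card α = p ^ k) ∧ (∀ a b : α, ∃ n : ℕ, (z ^ n) a = b) ∧
    ∀ Q Q' : Sylow p (Perm α), z ∈ Q → z ∈ Q' → Q = Q'

theorem UF.up {p : ℕ} {α : Type*} (h : UF p α) : UP p α := by
  obtain ⟨z, ⟨k, hk, -⟩, -, h3⟩ := h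
  exact ⟨z, ⟨k, hk⟩, h3⟩

theorem uniq_congr {p : ℕ} {G G' : Type*} [Group G] [Group G'] (e : G ≃* G') {z : G}
    (h : ∀ Q Q' : Sylow p G, z ∈ Q → z ∈ Q' → Q = Q') :
    ∀ Q Q' : Sylow p G', e z ∈ Q → e z ∈ Q' → Q = Q' := by
  intro Q Q' hQ hQ'
  have h1 : ∀ R : Sylow p G', (R : Subgroup G') ≤ e.toMonoidHom.range := by
    intro R g _
    exact ⟨e.symm g, e.apply_symm_apply g⟩
  have h2 := h (Q.comapOfInjective e.toMonoidHom e.injective (h1 Q))
    (Q'.comapOfInjective e.toMonoidHom e.injective (h1 Q')) hQ hQ'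
  have h3 : (Q : Subgroup G').comap e.toMonoidHom = (Q' : Subgroup G').comap e.toMonoidHom := by
    have := congrArg (fun R : Sylow p G => (R : Subgroup G)) h2
    simpa using this
  apply Sylow.ext
  exact Subgroup.comap_injective e.surjective h3

theorem UP.congr {p : ℕ} {α : Type u} {β : Type v} (e : α ≃ β) (h : UP p α) : UP p β := by
  obtain ⟨z, ⟨k, hk⟩, h3⟩ := h
  refine ⟨e.permCongrHom z, ⟨k, by rw [← map_pow, hk, map_one]⟩, uniq_congr e.permCongrHom h3⟩

/-! ### The full cycle -/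

section Prod

variable {p : ℕ} [hp : Fact p.Prime] {β : Type*} [Finite β] [DecidableEq β]

/-- The central element. -/
def z0 (p : ℕ) (β : Type*) : Perm (ZMod p × β) := (Equiv.addRight (1 : ZMod p)).prodCongr (Equiv.refl β)

@[simp] theorem z0_apply (x : ZMod p × β) : z0 p β x = (x.1 + 1, x.2) := rfl

theorem z0_pow (n : ℕ) (x : ZMod p × β) : (z0 p β ^ n) x = (x.1 + n, x.2) := by
  induction n with
  | zero => simp
  | succ n ih => rw [pow_succ', Perm.mul_apply, ih, z0_apply]; simp [add_assoc]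

theorem comm_apply {g : Perm (ZMod p × β)} (hg : g * z0 p β = z0 p β * g) (x : ZMod p) (b : β) :
    g (x, b) = ((g (0, b)).1 + x, (g (0, b)).2) := by
  have h1 : Commute g (z0 p β) := hg
  have h2 := h1.pow_right x.val
  have h3 : (g * z0 p β ^ x.val) (0, b) = (z0 p β ^ x.val * g) (0, b) := by rw [h2.eq]
  rw [Perm.mul_apply, Perm.mul_apply, z0_pow, z0_pow] at h3
  simpa using h3

/-- The lift of a permutation of `β` twisted at `b0`. -/
def lift (b0 : β) (s : Perm β) : Perm (ZMod p × β) where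
  toFun x := (x.1 + if x.2 = b0 then 1 else 0, s x.2)
  invFun x := (x.1 - if s.symm x.2 = b0 then 1 else 0, s.symm x.2)
  left_inv x := by simp
  right_inv x := by simp

@[simp] theorem lift_apply (b0 : β) (s : Perm β) (x : ZMod p × β) :
    lift b0 s x = (x.1 + if x.2 = b0 then 1 else 0, s x.2) := rfl

theorem lift_pow_snd (b0 : β) (s : Perm β) (n : ℕ) (x : ZMod p × β) :
    ((lift b0 s ^ n) x).2 = (s ^ n) x.2 := by
  induction n with
  | zero => simp
  | succ n ih => rw [pow_succ', Perm.mul_apply, lift_apply, pow_succ', Perm.mul_apply, ih]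

theorem lift_pow_fst (b0 : β) (s : Perm β) (n : ℕ) (x : ZMod p × β) :
    ((lift b0 s ^ n) x).1 = x.1 + ((Finset.range n).filter fun j => (s ^ j) x.2 = b0).card := by
  induction n with
  | zero => simp
  | succ n ih =>
    rw [pow_succ', Perm.mul_apply, lift_apply, ih, lift_pow_snd, Finset.range_add_one,
      Finset.filter_insert]
    split_ifs with h
    · rw [Finset.card_insert_of_notMem (by simp)]
      push_cast
      ring
    · simp

/-- In a transitive cyclic group every point is reached exactly once. -/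
theorem card_reach {s : Perm β} {m : ℕ} (hs : s ^ m = 1) (hm : Nat.card β = m)
    (htr : ∀ a b : β, ∃ n : ℕ, (s ^ n) a = b) (a b : β) :
    ((Finset.range m).filter fun j => (s ^ j) a = b).card = 1 := by
  classical
  have := Fintype.ofFinite β
  have hm0 : 0 < m := by
    rw [← hm]
    have : Nonempty β := ⟨a⟩
    exact Nat.card_pos
  have hsurj : Function.Surjective (fun j : Fin m => (s ^ (j : ℕ)) a) := by
    intro c
    obtain ⟨n, hn⟩ := htr a c
    refine ⟨⟨n % m, Nat.mod_lt _ hm0⟩, ?_⟩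
    show (s ^ (n % m)) a = c
    rw [← hn]
    conv_rhs => rw [← Nat.mod_add_div n m, pow_add, pow_mul, hs, one_pow, mul_one]
  have hbij : Function.Bijective (fun j : Fin m => (s ^ (j : ℕ)) a) := by
    rw [Fintype.bijective_iff_surjective_and_card]
    refine ⟨hsurj, ?_⟩
    rw [Fintype.card_fin, ← hm, Nat.card_eq_fintype_card]
  obtain ⟨j, hj⟩ := hsurj b
  rw [Finset.card_eq_one]
  refine ⟨(j : ℕ), ?_⟩
  ext l
  rw [Finset.mem_filter, Finset.mem_range, Finset.mem_singleton]
  constructor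
  · rintro ⟨hl, h⟩
    have := hbij.1 (a₁ := ⟨l, hl⟩) (a₂ := j) (h.trans hj.symm)
    rw [← this]
  · rintro rfl
    exact ⟨j.2, hj⟩

theorem lift_pow_card (b0 : β) {s : Perm β} {m : ℕ} (hs : s ^ m = 1) (hm : Nat.card β = m)
    (htr : ∀ a b : β, ∃ n : ℕ, (s ^ n) a = b) : (lift b0 s : Perm (ZMod p × β)) ^ m = z0 p β := by
  ext x : 1
  apply Prod.ext
  · rw [lift_pow_fst, card_reach hs hm htr, z0_apply]
    simp
  · rw [lift_pow_snd, hs, z0_apply]
    rfl

/-- A central element of order `p` in a `p`-group containing a full cycle. -/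
theorem mem_zpowers_of_commute {α : Type*} {z c : Perm α} (htr : ∀ a b : α, ∃ n : ℕ, (z ^ n) a = b)
    (a : α) (h : c * z = z * c) : ∃ n : ℕ, c = z ^ n := by
  obtain ⟨n, hn⟩ := htr a (c a)
  refine ⟨n, ?_⟩
  ext b
  obtain ⟨l, rfl⟩ := htr a b
  have h1 : Commute c z := h
  have h2 := (h1.pow_right l).eq
  have h3 : c ((z ^ l) a) = (z ^ l) (c a) := by
    rw [← Perm.mul_apply, h2, Perm.mul_apply]
  rw [h3, ← hn, ← Perm.mul_apply, ← Perm.mul_apply, ← pow_add, ← pow_add, add_comm]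

theorem uf_prod (h : UF p β) : UF p (ZMod p × β) := by
  classical
  obtain ⟨s, ⟨k, hs, hk⟩, htr, huniq⟩ := h
  have hne : Nonempty β := by
    rw [← Nat.card_pos_iff.trans (and_iff_left inferInstance)]
    rw [hk]
    exact pow_pos hp.1.pos k
  obtain ⟨b0⟩ := hne
  set z : Perm (ZMod p × β) := lift b0 s with hz
  have hzm : z ^ p ^ k = z0 p β := lift_pow_card b0 hs hk htr
  have hz0 : z0 p β ^ p = 1 := by
    ext x : 1
    rw [z0_pow]
    simp
  have hz0ne : z0 p β ≠ 1 := by
    intro h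
    have h1 : z0 p β (0, b0) = (0, b0) := by rw [h]; rfl
    rw [z0_apply] at h1
    have := congrArg Prod.fst h1
    simp at this
  have hzk : z ^ p ^ (k + 1) = 1 := by rw [pow_succ, pow_mul, hzm, hz0]
  have hztr : ∀ a b : ZMod p × β, ∃ n : ℕ, (z ^ n) a = b := by
    rintro a ⟨x, b⟩
    obtain ⟨n, hn⟩ := htr a.2 b
    refine ⟨n + p ^ k * (x - ((z ^ n) a).1).val, ?_⟩
    rw [add_comm, pow_add, pow_mul, hzm, Perm.mul_apply, z0_pow]
    apply Prod.ext
    · simp
    · show ((z ^ n) a).2 = b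
      rw [hz, lift_pow_snd, hn]
  refine ⟨z, ⟨k + 1, hzk, ?_⟩, hztr, ?_⟩
  · rw [Nat.card_prod, Nat.card_zmod, hk, pow_succ, mul_comm]
  -- the centraliser of `z0`
  set G : Subgroup (Perm (ZMod p × β)) := Subgroup.centralizer {z0 p β} with hG
  have hGmem : ∀ g, g ∈ G ↔ g * z0 p β = z0 p β * g := by
    intro g
    rw [hG, Subgroup.mem_centralizer_singleton_iff]
  have hzG : z ∈ G := by
    rw [hGmem, ← hzm, ← pow_succ, ← pow_succ']
  -- the projection
  let ρ0 : G → Perm β := fun g =>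
    { toFun := fun b => ((g : Perm (ZMod p × β)) (0, b)).2
      invFun := fun b => (((g⁻¹ : G) : Perm (ZMod p × β)) (0, b)).2
      left_inv := by
        intro b
        have h1 := comm_apply ((hGmem _).1 (g⁻¹).2) (((g : Perm (ZMod p × β)) (0, b)).1)
          (((g : Perm (ZMod p × β)) (0, b)).2)
        refine (congrArg Prod.snd h1).symm.trans ?_
        show (((g⁻¹ : G) : Perm (ZMod p × β)) ((g : Perm (ZMod p × β)) (0, b))).2 = b
        simp
      right_inv := by
        intro b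
        have h1 := comm_apply ((hGmem _).1 g.2) ((((g⁻¹ : G) : Perm (ZMod p × β)) (0, b)).1)
          ((((g⁻¹ : G) : Perm (ZMod p × β)) (0, b)).2)
        refine (congrArg Prod.snd h1).symm.trans ?_
        show ((g : Perm (ZMod p × β)) (((g⁻¹ : G) : Perm (ZMod p × β)) (0, b))).2 = b
        simp }
  let ρ : G →* Perm β :=
    MonoidHom.mk' ρ0 (by
      intro g g'
      ext b
      show (((g * g' : G) : Perm (ZMod p × β)) (0, b)).2 = (((g : Perm (ZMod p × β)) (0, ((g' : Perm (ZMod p × β)) (0, b)).2))).2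
      have h1 := comm_apply ((hGmem _).1 g.2) (((g' : Perm (ZMod p × β)) (0, b)).1)
          (((g' : Perm (ZMod p × β)) (0, b)).2)
      have h2 := congrArg Prod.snd h1
      rw [← h2]
      simp)
  have hρ : ∀ (g : G) (b : β), ρ g b = ((g : Perm (ZMod p × β)) (0, b)).2 := fun g b => rfl
  have hρsurj : Function.Surjective ρ := by
    intro σ
    refine ⟨⟨(Equiv.refl (ZMod p)).prodCongr σ, ?_⟩, ?_⟩
    · rw [hGmem]
      ext x : 1
      rfl
    · ext b
      rfl
  have hρz : ρ ⟨z, hzG⟩ = s := by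
    ext b
    rw [hρ]
    show (lift b0 s (0, b)).2 = s b
    rfl
  -- the kernel
  have hker : IsPGroup p ρ.ker := by
    rintro ⟨g, hg⟩
    refine ⟨1, ?_⟩
    apply Subtype.ext
    apply Subtype.ext
    ext x : 1
    have h1 : ∀ b : β, ((g : Perm (ZMod p × β)) (0, b)).2 = b := by
      intro b
      rw [← hρ, (MonoidHom.mem_ker).1 hg]
      rfl
    have h2 : ∀ (y : ZMod p) (b : β), (g : Perm (ZMod p × β)) (y, b) =
        (((g : Perm (ZMod p × β)) (0, b)).1 + y, b) := by
      intro y b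
      rw [comm_apply ((hGmem _).1 g.2) y b, h1]
    have h3 : ∀ (n : ℕ) (y : ZMod p) (b : β), ((g : Perm (ZMod p × β)) ^ n) (y, b) =
        (n * ((g : Perm (ZMod p × β)) (0, b)).1 + y, b) := by
      intro n
      induction n with
      | zero => intro y b; simp
      | succ n ih =>
        intro y b
        rw [pow_succ, Perm.mul_apply, h2, ih]
        push_cast
        ring_nf
    obtain ⟨y, b⟩ := x
    show ((g : Perm (ZMod p × β)) ^ (p ^ 1)) (y, b) = (y, b)
    rw [pow_one, h3]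
    simp
  -- Sylow subgroups containing `z` centralise `z0`
  have hQG : ∀ Q : Sylow p (Perm (ZMod p × β)), z ∈ Q → (Q : Subgroup (Perm (ZMod p × β))) ≤ G := by
    intro Q hQ
    have hnt : Nontrivial (Q : Subgroup (Perm (ZMod p × β))) := by
      refine ⟨⟨⟨z, hQ⟩, 1, ?_⟩⟩
      intro h
      have h1 : z = 1 := congrArg Subtype.val h
      rw [h1, one_pow] at hzm
      exact hz0ne hzm.symm
    have hfin : Finite (Q : Subgroup (Perm (ZMod p × β))) := inferInstance
    have hcen := Q.isPGroup'.center_nontrivial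
    have hpc : IsPGroup p (Subgroup.center (Q : Subgroup (Perm (ZMod p × β)))) := Q.isPGroup'.to_subgroup _
    have hdvd : p ∣ Nat.card (Subgroup.center (Q : Subgroup (Perm (ZMod p × β)))) := by
      obtain ⟨n, hn⟩ := IsPGroup.iff_card.1 hpc
      rw [hn]
      apply dvd_pow_self
      rintro rfl
      rw [pow_zero, Nat.card_eq_one_iff_unique] at hn
      exact not_subsingleton _ hn.1
    obtain ⟨⟨⟨c, hcQ⟩, hcc⟩, hc⟩ := exists_prime_orderOf_dvd_card' p hdvd
    rw [Subgroup.orderOf_mk, Subgroup.orderOf_mk] at hc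
    have hcomm : ∀ g ∈ Q, g * c = c * g := by
      intro g hg
      have := (Subgroup.mem_center_iff.1 hcc) ⟨g, hg⟩
      exact congrArg Subtype.val this
    obtain ⟨j, hj⟩ := mem_zpowers_of_commute hztr (0, b0) (hcomm z hQ).symm
    -- `p ^ k` divides `j`
    have h1 : z ^ (j * p) = 1 := by
      have := pow_orderOf_eq_one c
      rwa [hc, hj, ← pow_mul] at this
    have hordz : orderOf z = p ^ (k + 1) := by
      apply orderOf_eq_prime_pow _ hzk
      rw [hzm]
      exact hz0ne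
    have h2 : p ^ (k + 1) ∣ j * p := by rw [← hordz]; exact orderOf_dvd_of_pow_eq_one h1
    rw [pow_succ] at h2
    obtain ⟨t, rfl⟩ := Nat.dvd_of_mul_dvd_mul_right hp.1.pos h2
    rw [pow_mul, hzm] at hj
    have hpt : ¬ p ∣ t := by
      rintro ⟨t', rfl⟩
      rw [pow_mul, hz0, one_pow] at hj
      rw [hj, orderOf_one] at hc
      exact hp.1.one_lt.ne hc
    have hcop : Nat.Coprime p t := (hp.1.coprime_iff_not_dvd).2 hpt
    obtain ⟨r, hr⟩ : ∃ r : ℕ, t * r ≡ 1 [MOD p] := by
      obtain ⟨r, -, hr⟩ := Nat.exists_mul_mod_eq_one_of_coprime hcop.symm hp.1.one_lt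
      exact ⟨r, by rw [Nat.ModEq, hr, Nat.mod_eq_of_lt hp.1.one_lt]⟩
    have h3 : z0 p β = c ^ r := by
      rw [hj, ← pow_mul]
      have hord0 : orderOf (z0 p β) = p := orderOf_eq_prime hz0 hz0ne
      have h4 : z0 p β ^ (t * r) = z0 p β ^ 1 := by
        rw [pow_eq_pow_iff_modEq, hord0]
        exact hr
      rw [h4, pow_one]
    intro g hg
    rw [hGmem, h3]
    have h5 : Commute g c := hcomm g hg
    exact (h5.pow_right r).eq
  -- the conclusion
  intro Q Q' hQ hQ'
  have hR : ∀ R : Sylow p (Perm (ZMod p × β)), z ∈ R → (R : Subgroup (Perm (ZMod p × β))) ≤ G.subtype.range := by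
    intro R hR
    rw [Subgroup.range_subtype]
    exact hQG R hR
  set R := Q.comapOfInjective G.subtype G.subtype_injective (hR Q hQ) with hRdef
  set R' := Q'.comapOfInjective G.subtype G.subtype_injective (hR Q' hQ') with hRdef'
  have hmap : R.mapSurjective hρsurj = R'.mapSurjective hρsurj := by
    apply huniq
    · show s ∈ (R : Subgroup G).map ρ
      exact ⟨⟨z, hzG⟩, hQ, hρz⟩
    · show s ∈ (R' : Subgroup G).map ρ
      exact ⟨⟨z, hzG⟩, hQ', hρz⟩
  have hkerle : ∀ T : Sylow p G, ρ.ker ≤ (T : Subgroup G) := by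
    intro T
    have h1 := hker.to_sup_of_normal_left T.isPGroup'
    have h2 := T.3 h1 le_sup_right
    rw [← h2]
    exact le_sup_left
  have hRR : R = R' := by
    apply Sylow.ext
    have h1 : (R : Subgroup G).map ρ = (R' : Subgroup G).map ρ :=
      congrArg (fun T : Sylow p (Perm β) => (T : Subgroup (Perm β))) hmap
    have h2 := congrArg (Subgroup.comap ρ) h1
    rw [Subgroup.comap_map_eq, Subgroup.comap_map_eq, sup_eq_left.2 (hkerle R), sup_eq_left.2 (hkerle R')] at h2
    exact h2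
  apply Sylow.ext
  have h1 : (Q : Subgroup (Perm (ZMod p × β))).comap G.subtype = (Q' : Subgroup (Perm (ZMod p × β))).comap G.subtype :=
    congrArg (fun T : Sylow p G => (T : Subgroup G)) hRR
  ext g
  constructor
  · intro hg
    have : (⟨g, hQG Q hQ hg⟩ : G) ∈ (Q : Subgroup (Perm (ZMod p × β))).comap G.subtype := hg
    rw [h1] at this
    exact this
  · intro hg
    have : (⟨g, hQG Q' hQ' hg⟩ : G) ∈ (Q' : Subgroup (Perm (ZMod p × β))).comap G.subtype := hg
    rw [← h1] at this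
    exact this

end Prod

/-! ### Disjoint unions -/

theorem prod_sylow_ext {p : ℕ} [Fact p.Prime] {A B : Type*} [Group A] [Group B] [Finite A] [Finite B]
    {R R' : Sylow p (A × B)}
    (h1 : (R : Subgroup (A × B)).map (MonoidHom.fst A B) = (R' : Subgroup (A × B)).map (MonoidHom.fst A B))
    (h2 : (R : Subgroup (A × B)).map (MonoidHom.snd A B) = (R' : Subgroup (A × B)).map (MonoidHom.snd A B)) :
    R = R' := by
  have key : ∀ T : Sylow p (A × B), (T : Subgroup (A × B)) =
      ((T : Subgroup (A × B)).map (MonoidHom.fst A B)).prod ((T : Subgroup (A × B)).map (MonoidHom.snd A B)) := by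
    intro T
    have hP : IsPGroup p (((T : Subgroup (A × B)).map (MonoidHom.fst A B)).prod
        ((T : Subgroup (A × B)).map (MonoidHom.snd A B))) := by
      rintro ⟨⟨a, b⟩, ha, hb⟩
      obtain ⟨k, hk⟩ := (T.isPGroup'.map (MonoidHom.fst A B)) ⟨a, ha⟩
      obtain ⟨l, hl⟩ := (T.isPGroup'.map (MonoidHom.snd A B)) ⟨b, hb⟩
      have hk' : a ^ p ^ k = 1 := congrArg Subtype.val hk
      have hl' : b ^ p ^ l = 1 := congrArg Subtype.val hl
      refine ⟨k + l, Subtype.ext (Prod.ext ?_ ?_)⟩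
      · show a ^ p ^ (k + l) = 1
        rw [pow_add, pow_mul, hk', one_pow]
      · show b ^ p ^ (k + l) = 1
        rw [add_comm, pow_add, pow_mul, hl', one_pow]
    exact (T.3 hP fun x hx => ⟨⟨x, hx, rfl⟩, ⟨x, hx, rfl⟩⟩).symm
  apply Sylow.ext
  rw [key R, key R', h1, h2]

theorem up_sum {p i : ℕ} [hp : Fact p.Prime] {α β : Type*} [Finite α] [Finite β] (hα : UF p α)
    (hcα : Nat.card α = p ^ i) (hβ : UP p β) (hc : Nat.card α + Nat.card β < p ^ (i + 1)) : UP p (α ⊕ β) := by
  classical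
  obtain ⟨z1, ⟨k, hz1, hk⟩, htr, hu1⟩ := hα
  obtain ⟨z2, ⟨l, hz2⟩, hu2⟩ := hβ
  have hne : Nonempty α := by
    rw [← Nat.card_pos_iff.trans (and_iff_left inferInstance)]
    rw [hcα]
    exact pow_pos hp.1.pos i
  obtain ⟨a0⟩ := hne
  set z : Perm (α ⊕ β) := Perm.sumCongrHom α β (z1, z2) with hz
  have hzl : ∀ (n : ℕ) (a : α), (z ^ n) (Sum.inl a) = Sum.inl ((z1 ^ n) a) := by
    intro n a
    rw [hz, ← map_pow]
    rfl
  refine ⟨z, ⟨k + l, ?_⟩, ?_⟩
  · rw [hz, ← map_pow]
    have : ((z1, z2) : Perm α × Perm β) ^ p ^ (k + l) = 1 := by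
      apply Prod.ext
      · show z1 ^ p ^ (k + l) = 1
        rw [pow_add, pow_mul, hz1, one_pow]
      · show z2 ^ p ^ (k + l) = 1
        rw [add_comm, pow_add, pow_mul, hz2, one_pow]
    rw [this, map_one]
  have hrange : ∀ Q : Sylow p (Perm (α ⊕ β)), z ∈ Q →
      (Q : Subgroup (Perm (α ⊕ β))) ≤ (Perm.sumCongrHom α β).range := by
    intro Q hQ
    -- the orbit of a point of `α`
    have horb : MulAction.orbit (Q : Subgroup (Perm (α ⊕ β))) (Sum.inl a0 : α ⊕ β) = Set.range Sum.inl := by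
      have h1 : Set.range (Sum.inl : α → α ⊕ β) ⊆
          MulAction.orbit (Q : Subgroup (Perm (α ⊕ β))) (Sum.inl a0 : α ⊕ β) := by
        rintro _ ⟨a, rfl⟩
        obtain ⟨n, hn⟩ := htr a0 a
        refine ⟨⟨z ^ n, pow_mem hQ n⟩, ?_⟩
        show (z ^ n) (Sum.inl a0) = Sum.inl a
        rw [hzl, hn]
      obtain ⟨m, hm⟩ := Q.isPGroup'.card_orbit (Sum.inl a0 : α ⊕ β)
      have h2 : (Set.range (Sum.inl : α → α ⊕ β)).ncard = p ^ i := by
        rw [Set.ncard_range_of_injective Sum.inl_injective, hcα]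
      have h3 : (MulAction.orbit (Q : Subgroup (Perm (α ⊕ β))) (Sum.inl a0 : α ⊕ β)).ncard = p ^ m := by
        rw [← Nat.card_coe_set_eq, hm]
      have h4 : (MulAction.orbit (Q : Subgroup (Perm (α ⊕ β))) (Sum.inl a0 : α ⊕ β)).ncard ≤
          Nat.card α + Nat.card β := by
        rw [← Nat.card_sum, ← Set.ncard_univ]
        exact Set.ncard_le_ncard (Set.subset_univ _) (Set.toFinite _)
      have h5 : m < i + 1 := by
        rw [h3] at h4
        exact (Nat.pow_lt_pow_iff_right hp.1.one_lt).1 (h4.trans_lt hc)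
      have h6 : p ^ m ≤ p ^ i := Nat.pow_le_pow_right hp.1.pos (Nat.lt_succ_iff.1 h5)
      exact (Set.eq_of_subset_of_ncard_le h1 (by rw [h2, h3]; exact h6) (Set.toFinite _)).symm
    intro g hg
    apply Perm.mem_sumCongrHom_range_of_perm_mapsTo_inl
    intro x hx
    rw [← horb] at hx ⊢
    obtain ⟨h, rfl⟩ := hx
    exact ⟨⟨g, hg⟩ * h, rfl⟩
  intro Q Q' hQ hQ'
  set R := Q.comapOfInjective (Perm.sumCongrHom α β) Perm.sumCongrHom_injective (hrange Q hQ) with hR
  set R' := Q'.comapOfInjective (Perm.sumCongrHom α β) Perm.sumCongrHom_injective (hrange Q' hQ') with hR'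
  have hfst : Function.Surjective (MonoidHom.fst (Perm α) (Perm β)) := fun a => ⟨(a, 1), rfl⟩
  have hsnd : Function.Surjective (MonoidHom.snd (Perm α) (Perm β)) := fun b => ⟨(1, b), rfl⟩
  have e1 := hu1 (R.mapSurjective hfst) (R'.mapSurjective hfst) ⟨(z1, z2), hQ, rfl⟩ ⟨(z1, z2), hQ', rfl⟩
  have e2 := hu2 (R.mapSurjective hsnd) (R'.mapSurjective hsnd) ⟨(z1, z2), hQ, rfl⟩ ⟨(z1, z2), hQ', rfl⟩
  have e3 : R = R' := prod_sylow_ext
    (congrArg (fun T : Sylow p (Perm α) => (T : Subgroup (Perm α))) e1)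
    (congrArg (fun T : Sylow p (Perm β) => (T : Subgroup (Perm β))) e2)
  have h1 : (Q : Subgroup (Perm (α ⊕ β))).comap (Perm.sumCongrHom α β) =
      (Q' : Subgroup (Perm (α ⊕ β))).comap (Perm.sumCongrHom α β) :=
    congrArg (fun T : Sylow p (Perm α × Perm β) => (T : Subgroup (Perm α × Perm β))) e3
  apply Sylow.ext
  ext g
  constructor
  · intro hg
    obtain ⟨g', rfl⟩ := hrange Q hQ hg
    have : g' ∈ (Q : Subgroup (Perm (α ⊕ β))).comap (Perm.sumCongrHom α β) := hg
    rw [h1] at this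
    exact this
  · intro hg
    obtain ⟨g', rfl⟩ := hrange Q' hQ' hg
    have : g' ∈ (Q' : Subgroup (Perm (α ⊕ β))).comap (Perm.sumCongrHom α β) := hg
    rw [← h1] at this
    exact this

theorem exists_uf (p : ℕ) [Fact p.Prime] (i : ℕ) : ∃ α : Type, Finite α ∧ Nat.card α = p ^ i ∧ UF p α := by
  classical
  induction i with
  | zero =>
    refine ⟨Unit, inferInstance, by simp, 1, ⟨0, by simp, by simp⟩, fun a b => ⟨0, Subsingleton.elim _ _⟩, ?_⟩
    intro Q Q' _ _
    apply Sylow.ext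
    have : Subsingleton (Perm Unit) := inferInstance
    exact Subsingleton.elim _ _
  | succ i ih =>
    obtain ⟨α, hα, hc, hu⟩ := ih
    have : Fintype α := Fintype.ofFinite α
    refine ⟨ZMod p × α, inferInstance, ?_, uf_prod hu⟩
    rw [Nat.card_prod, Nat.card_zmod, hc, pow_succ, mul_comm]

/-- **Some `p`-element of the symmetric group lies in only one Sylow `p`-subgroup.** -/
theorem up_fin (p : ℕ) [hp : Fact p.Prime] (n : ℕ) : UP p (Fin n) := by
  induction n using Nat.strong_induction_on with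
  | _ n ih =>
    rcases Nat.eq_zero_or_pos n with rfl | hn
    · refine ⟨1, ⟨0, by simp⟩, ?_⟩
      intro Q Q' _ _
      apply Sylow.ext
      have : Subsingleton (Perm (Fin 0)) := inferInstance
      exact Subsingleton.elim _ _
    · obtain ⟨α, hα, hc, hu⟩ := exists_uf p (Nat.log p n)
      have h1 : p ^ Nat.log p n ≤ n := Nat.pow_log_le_self p hn.ne'
      have h2 : n < p ^ (Nat.log p n + 1) := Nat.lt_pow_succ_log_self hp.1.one_lt n
      have h3 : 0 < p ^ Nat.log p n := pow_pos hp.1.pos _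
      have h4 : UP p (α ⊕ Fin (n - p ^ Nat.log p n)) := by
        apply up_sum hu hc (ih _ (by omega))
        rw [hc, Nat.card_fin]
        omega
      have h5 : Nat.card (α ⊕ Fin (n - p ^ Nat.log p n)) = Nat.card (Fin n) := by
        rw [Nat.card_sum, hc, Nat.card_fin, Nat.card_fin]
        omega
      have := Fintype.ofFinite α
      exact h4.congr (Finite.card_eq.1 h5).some

/-- The alternating group. -/
theorem exists_uniq_alt {p : ℕ} [hp : Fact p.Prime] (hp2 : p ≠ 2) (n : ℕ) :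
    ∃ z : alternatingGroup (Fin n), ∃ Q : Sylow p (alternatingGroup (Fin n)), z ∈ Q ∧
      ∀ Q' : Sylow p (alternatingGroup (Fin n)), z ∈ Q' → Q' = Q := by
  obtain ⟨z, ⟨k, hk⟩, hz⟩ := up_fin p n
  have heven : ∀ g : Perm (Fin n), (∃ k : ℕ, g ^ p ^ k = 1) → g ∈ alternatingGroup (Fin n) := by
    rintro g ⟨k, hk⟩
    rw [Perm.mem_alternatingGroup]
    have h1 : (Perm.sign g) ^ p ^ k = 1 := by rw [← map_pow, hk, map_one]
    have hodd : Odd (p ^ k) := (hp.1.odd_of_ne_two hp2).pow
    rcases Int.units_eq_one_or (Perm.sign g) with h | h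
    · exact h
    · rw [h, hodd.neg_one_pow] at h1
      exact absurd h1 (by decide)
  have hzA := heven z ⟨k, hk⟩
  have hzp : IsPGroup p (Subgroup.zpowers (⟨z, hzA⟩ : alternatingGroup (Fin n))) := by
    rintro ⟨_, m, rfl⟩
    refine ⟨k, Subtype.ext (Subtype.ext ?_)⟩
    show ((z ^ m) ^ p ^ k : Perm (Fin n)) = 1
    rw [← zpow_natCast, ← zpow_mul, mul_comm, zpow_mul, zpow_natCast, hk, one_zpow]
  obtain ⟨Q, hQ⟩ := hzp.exists_le_sylow
  have key : ∀ R : Sylow p (alternatingGroup (Fin n)), ∃ R' : Sylow p (Perm (Fin n)),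
      (R' : Subgroup (Perm (Fin n))).subgroupOf (alternatingGroup (Fin n)) = R ∧
      (R : Subgroup (alternatingGroup (Fin n))).map (alternatingGroup (Fin n)).subtype ≤ R' := by
    intro R
    obtain ⟨R', hR'⟩ := (R.isPGroup'.map (alternatingGroup (Fin n)).subtype).exists_le_sylow
    refine ⟨R', ?_, hR'⟩
    apply R.3
    · exact R'.isPGroup'.comap_of_injective (alternatingGroup (Fin n)).subtype (Subgroup.subtype_injective _)
    · intro g hg
      exact hR' ⟨g, hg, rfl⟩
  refine ⟨⟨z, hzA⟩, Q, hQ (Subgroup.mem_zpowers _), fun Q' hQ' => ?_⟩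
  obtain ⟨R, hR1, hR2⟩ := key Q
  obtain ⟨R', hR1', hR2'⟩ := key Q'
  have h1 : R' = R := hz R' R (hR2' ⟨_, hQ', rfl⟩) (hR2 ⟨_, hQ (Subgroup.mem_zpowers _), rfl⟩)
  apply Sylow.ext
  rw [← hR1, ← hR1', h1]

/-- **The row of the alternating groups, `p` odd.** -/
theorem row_alt {p : ℕ} [Fact p.Prime] (hp2 : p ≠ 2) {n : ℕ} (hn : 5 ≤ n)
    (hpS : p ∣ Nat.card (alternatingGroup (Fin n))) : Row p (alternatingGroup (Fin n)) := by
  have : IsSimpleGroup (alternatingGroup (Fin n)) :=
    alternatingGroup.isSimpleGroup (by rw [Nat.card_fin]; exact hn)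
  obtain ⟨z, Q, hz, hQ⟩ := exists_uniq_alt hp2 n
  exact row_of_uniq (pGen_of_simple hpS) hp2 hz hQ

end Cfsg.Agent.H444.Fpr
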