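import Cfsg.Agent.H715.Fpr.Row2

/-!
# Fixed points and the number of elements of order `p` of the point stabilizer (helper444)

* `fix_mul_card_le` : `fix(x) |H| ≤ #{y ∈ H : o(y) = o(x)} |C(x)|`;
* `fix_mul_norm_le` : the Sylow `p`-subgroup `P` of `H` has order `p ^ 2`: `fix(x) |N_H(P)| ≤ (p ^ 2 - 1) |C(x)|`.
-/

set_option autoImplicit false

namespace Cfsg.Agent.H444.FprCount

open Subgroup MulAction

universe u

variable {S : Type u} [Group S] [Finite S]

/-- fixed points and elements of the stabilizer -/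
theorem fix_mul_card_le (H : Subgroup S) (x : S) :
    Nat.card (fixedBy (S ⧸ H) x) * Nat.card H ≤
      Nat.card {y : H // orderOf (y : S) = orderOf x} * Nat.card (centralizer ({x} : Set S)) := by
  classical
  let r : fixedBy (S ⧸ H) x → S := fun w => (w : S ⧸ H).out
  have hr : ∀ w : fixedBy (S ⧸ H) x, ((r w : S) : S ⧸ H) = w := fun w => Quotient.out_eq' _
  have hmem : ∀ w : fixedBy (S ⧸ H) x, (r w)⁻¹ * x * r w ∈ H := by
    intro w
    have h1 : x • (w : S ⧸ H) = w := w.2
    rw [← hr w] at h1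
    have h2 : ((x * r w : S) : S ⧸ H) = (r w : S) := h1
    have h3 := QuotientGroup.eq.1 h2.symm
    rwa [← mul_assoc] at h3
  let c : H → S := fun y => if h : ∃ g : S, g⁻¹ * x * g = y then h.choose else 1
  have hc : ∀ (y : H) (g : S), g⁻¹ * x * g = y → (c y)⁻¹ * x * c y = y := by
    intro y g hg
    have h : ∃ g : S, g⁻¹ * x * g = y := ⟨g, hg⟩
    change (if h : ∃ g : S, g⁻¹ * x * g = y then h.choose else 1 : S)⁻¹ * x *
      (if h : ∃ g : S, g⁻¹ * x * g = y then h.choose else 1 : S) = y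
    rw [dif_pos h]
    exact h.choose_spec
  let v : fixedBy (S ⧸ H) x × H → S := fun a => r a.1 * (a.2 : S)
  have hv : ∀ a, (v a)⁻¹ * x * v a ∈ H := by
    intro a
    have h1 : (v a)⁻¹ * x * v a = (a.2 : S)⁻¹ * ((r a.1)⁻¹ * x * r a.1) * (a.2 : S) := by
      change (r a.1 * (a.2 : S))⁻¹ * x * (r a.1 * (a.2 : S)) = _
      group
    rw [h1]
    exact mul_mem (mul_mem (inv_mem a.2.2) (hmem _)) a.2.2
  have hvo : ∀ a, orderOf ((v a)⁻¹ * x * v a) = orderOf x := by
    intro a
    have h2 : (v a)⁻¹ * x * v a = MulAut.conj (v a)⁻¹ x := by simp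
    rw [h2, MulEquiv.orderOf_eq]
  have hcc : ∀ a, v a * (c ⟨_, hv a⟩)⁻¹ ∈ centralizer ({x} : Set S) := by
    intro a
    have h1 := hc ⟨_, hv a⟩ (v a) rfl
    rw [mem_centralizer_singleton_iff]
    set d := c ⟨_, hv a⟩
    have h2 : d⁻¹ * x * d = (v a)⁻¹ * x * v a := h1
    have h3 : x * d = d * ((v a)⁻¹ * x * v a) := by rw [← h2]; group
    calc v a * d⁻¹ * x = v a * (d⁻¹ * x * d) * d⁻¹ := by group
      _ = v a * ((v a)⁻¹ * x * v a) * d⁻¹ := by rw [h2]
      _ = x * (v a * d⁻¹) := by group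
  rw [← Nat.card_prod, ← Nat.card_prod]
  refine Nat.card_le_card_of_injective (fun a : fixedBy (S ⧸ H) x × H =>
    ((⟨⟨_, hv a⟩, hvo a⟩, ⟨_, hcc a⟩) :
      {y : H // orderOf (y : S) = orderOf x} × centralizer ({x} : Set S))) ?_
  intro a b hab
  rw [Prod.mk.injEq] at hab
  obtain ⟨h1, h2⟩ := hab
  have h1 := congrArg Subtype.val h1
  have h3 : v a * (c ⟨_, hv a⟩)⁻¹ = v b * (c ⟨_, hv b⟩)⁻¹ := congrArg Subtype.val h2
  have h1' : (⟨_, hv a⟩ : H) = ⟨_, hv b⟩ := h1
  rw [h1'] at h3
  have h4 : v a = v b := mul_right_cancel h3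
  have h5 : (a.1 : S ⧸ H) = b.1 := by
    rw [← hr a.1, ← hr b.1]
    have h6 : r a.1 * (a.2 : S) = r b.1 * (b.2 : S) := h4
    apply QuotientGroup.eq.2
    have h7 : (r a.1)⁻¹ * r b.1 = (a.2 : S) * (b.2 : S)⁻¹ := by
      calc (r a.1)⁻¹ * r b.1 = (r a.1)⁻¹ * (r b.1 * (b.2 : S)) * (b.2 : S)⁻¹ := by group
        _ = (r a.1)⁻¹ * (r a.1 * (a.2 : S)) * (b.2 : S)⁻¹ := by rw [← h6]
        _ = (a.2 : S) * (b.2 : S)⁻¹ := by group
    rw [h7]
    exact mul_mem a.2.2 (inv_mem b.2.2)
  have h8 : a.1 = b.1 := Subtype.ext h5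
  have h9 : (a.2 : S) = b.2 := by
    have h6 : r a.1 * (a.2 : S) = r b.1 * (b.2 : S) := h4
    rw [h8] at h6
    exact mul_left_cancel h6
  exact Prod.ext h8 (Subtype.ext h9)

/-- the number of elements of order `p`, Sylow `p`-subgroups of order `m` -/
theorem card_order_le {p : ℕ} (hp : p.Prime) (m : ℕ) (hm : ∀ P : Sylow p S, Nat.card P = m) :
    Nat.card {y : S // orderOf y = p} ≤ (m - 1) * Nat.card (Sylow p S) := by
  classical
  have := Fact.mk hp
  have : Finite (Sylow p S) := inferInstance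
  have key : ∀ y : {y : S // orderOf y = p}, ∃ P : Sylow p S, (y : S) ∈ P := by
    rintro ⟨y, hy⟩
    have hZ : IsPGroup p (zpowers y) := IsPGroup.of_card (n := 1) (by rw [Nat.card_zpowers, hy, pow_one])
    obtain ⟨P, hP⟩ := hZ.exists_le_sylow
    exact ⟨P, hP (mem_zpowers y)⟩
  choose F hF using key
  have hinj : Nat.card {y : S // orderOf y = p} ≤ Nat.card ((P : Sylow p S) × {y : P // (y : S) ≠ 1}) := by
    refine Nat.card_le_card_of_injective (fun y => ⟨F y, ⟨⟨(y : S), hF y⟩, ?_⟩⟩) ?_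
    · intro h
      have h1 := y.2
      have h2 : (y : S) = 1 := h
      rw [h2, orderOf_one] at h1
      exact hp.one_lt.ne h1
    · intro y z hyz
      have h1 := congrArg (fun a : (P : Sylow p S) × {y : P // (y : S) ≠ 1} => ((a.2 : a.1) : S)) hyz
      exact Subtype.ext h1
  refine hinj.trans ?_
  have hP : ∀ P : Sylow p S, Nat.card {y : P // (y : S) ≠ 1} = m - 1 := by
    intro P
    have h1 : Nat.card {y : P // (y : S) ≠ 1} = Nat.card {y : P // y ≠ 1} :=
      Nat.card_congr (Equiv.subtypeEquivRight fun y => by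
        rw [Ne, Ne, ← Subgroup.coe_one (P : Subgroup S), Subtype.coe_inj])
    rw [h1]
    have h2 := Nat.card_congr (Equiv.sumCompl (fun y : P => y = 1))
    rw [Nat.card_sum] at h2
    have h3 : Nat.card {y : P // y = 1} = 1 := Nat.card_unique
    have h5 : Nat.card P = m := hm P
    have h4 : Nat.card {y : P // ¬ y = 1} = m - 1 := by
      rw [h3] at h2
      have h6 : 1 + Nat.card {y : P // ¬ y = 1} = m := h2.trans h5
      omega
    exact h4
  have : Fintype (Sylow p S) := Fintype.ofFinite _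
  rw [Nat.card_sigma, Finset.sum_congr rfl (fun P _ => hP P), Finset.sum_const, Finset.card_univ,
    ← Nat.card_eq_fintype_card, smul_eq_mul, mul_comm]

/-- **fixed points and the normalizer of a Sylow subgroup of the stabilizer** -/
theorem fix_mul_norm_le {p : ℕ} (hp : p.Prime) {H : Subgroup S} (P : Sylow p H) {m : ℕ} (hm : Nat.card P = m)
    {x : S} (hx : orderOf x = p) :
    Nat.card (fixedBy (S ⧸ H) x) * Nat.card (normalizer ((P : Subgroup H) : Set H)) ≤
      (m - 1) * Nat.card (centralizer ({x} : Set S)) := by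
  have := Fact.mk hp
  have h1 := fix_mul_card_le H x
  have h2 : Nat.card {y : H // orderOf (y : S) = orderOf x} = Nat.card {y : H // orderOf y = p} :=
    Nat.card_congr (Equiv.subtypeEquivRight fun y => by rw [Subgroup.orderOf_coe, hx])
  have h3 : Nat.card {y : H // orderOf y = p} ≤ (m - 1) * Nat.card (Sylow p H) :=
    card_order_le hp m fun Q => (Nat.card_congr (Q.equiv P).toEquiv).trans hm
  have h4 : Nat.card (Sylow p H) = (normalizer ((P : Subgroup H) : Set H)).index := Sylow.card_eq_index_normalizer P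
  have h5 := card_mul_index (normalizer ((P : Subgroup H) : Set H))
  rw [h2] at h1
  rw [h4] at h3
  set N := Nat.card (normalizer ((P : Subgroup H) : Set H))
  set i := (normalizer ((P : Subgroup H) : Set H)).index
  have hi : 0 < i := Nat.pos_of_ne_zero index_ne_zero_of_finite
  refine Nat.le_of_mul_le_mul_right (c := i) ?_ hi
  calc Nat.card (fixedBy (S ⧸ H) x) * N * i = Nat.card (fixedBy (S ⧸ H) x) * Nat.card H := by rw [mul_assoc, h5]
    _ ≤ Nat.card {y : H // orderOf y = p} * Nat.card (centralizer ({x} : Set S)) := h1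
    _ ≤ (m - 1) * i * Nat.card (centralizer ({x} : Set S)) := Nat.mul_le_mul_right _ h3
    _ = (m - 1) * Nat.card (centralizer ({x} : Set S)) * i := by ring

/-- the order of the normalizer of a Sylow subgroup modulo `p` -/
theorem card_norm_modEq {p : ℕ} (hp : p.Prime) (P : Sylow p S) {m : ℕ} (hm : Nat.card P = m) :
    ∃ j, Nat.card (normalizer ((P : Subgroup S) : Set S)) = m * j ∧ j ≡ Nat.card S / m [MOD p] := by
  have := Fact.mk hp
  have h1 : m ∣ Nat.card (normalizer ((P : Subgroup S) : Set S)) := by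
    rw [← hm]
    exact card_dvd_of_le le_normalizer
  obtain ⟨j, hj⟩ := h1
  refine ⟨j, hj, ?_⟩
  have h4 : Nat.card (Sylow p S) = (normalizer ((P : Subgroup S) : Set S)).index := Sylow.card_eq_index_normalizer P
  have h5 := card_mul_index (normalizer ((P : Subgroup S) : Set S))
  have h6 : Nat.card (Sylow p S) ≡ 1 [MOD p] := card_sylow_modEq_one p S
  rw [h4] at h6
  have hm0 : 0 < m := by rw [← hm]; exact Nat.card_pos
  have h7 : Nat.card S / m = j * (normalizer ((P : Subgroup S) : Set S)).index := by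
    apply Nat.div_eq_of_eq_mul_right hm0
    rw [← h5, hj, mul_assoc]
  rw [h7]
  have h8 := (h6.mul_left j).symm
  rwa [mul_one] at h8

end Cfsg.Agent.H444.FprCount
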